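import Mathlib
import Cfsg.Agent.Lib.EqZJ.Fix
import Cfsg.Agent.Lib.ZJ.FunctorApp
import Cfsg.Agent.Lib.Coprime.Action
import Cfsg.Agent.Lib.Core.MinNormal

/-! Quadratic stability of a group with a coprime operator group whose fixed points do not involve `PSL₂(p)`. -/

set_option autoImplicit false

namespace CfsgLib.EqZJ

open Cfsg CfsgLib.RootSub CfsgLib.ZJ CfsgLib.PLocal Subgroup
open scoped MatrixGroups commutatorElement

universe u

variable {p : ℕ} [hp : Fact p.Prime]

/-- `N` is normal of `p'`-index and `C_N(A)` does not involve `PSL₂(p)`. -/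
structure Hyp (p : ℕ) {Γ : Type*} [Group Γ] (N A : Subgroup Γ) : Prop where
  nN : N.Normal
  idx : N.index.Coprime p
  cop : (Nat.card A).Coprime (Nat.card N)
  inv : ¬ Involves PSL(2, ZMod p) ↥(N ⊓ centralizer A)

variable {Γ : Type u} [Group Γ] [Finite Γ] {N A : Subgroup Γ}

omit hp in
theorem Hyp.inv_map (h : Hyp p N A) {Q : Type*} [Group Q] (f : Γ →* Q) :
    ¬ Involves PSL(2, ZMod p) ↥(N.map f ⊓ centralizer (A.map f)) := by
  have := h.nN
  have h1 := h.cop.coprime_dvd_right (card_dvd_of_le (inf_le_left : N ⊓ f.ker ≤ N))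
  rw [← Coprime.map_inf_centralizer f le_normalizer_of_normal h1 (FT.solvable_or_of_coprime h1)]
  exact fun h2 => h.inv (involves_trans h2 (involves_of_surjective _ (f.subgroupMap_surjective _)))

omit hp [Finite Γ] in
theorem Hyp.cop_map (h : Hyp p N A) {Q : Type*} [Group Q] (f : Γ →* Q) :
    (Nat.card (A.map f)).Coprime (Nat.card (N.map f)) :=
  (h.cop.coprime_dvd_left (card_map_dvd _ _)).coprime_dvd_right (card_map_dvd _ _)

omit hp in
theorem Hyp.map (h : Hyp p N A) {Q : Type*} [Group Q] {f : Γ →* Q} (hf : Function.Surjective f) :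
    Hyp p (N.map f) (A.map f) :=
  ⟨h.nN.map f hf, h.idx.coprime_dvd_left (index_map_dvd _ hf), h.cop_map f, h.inv_map f⟩

theorem Hyp.mem_centralizer (h : Hyp p N A) (h5 : 5 ≤ p) {V : Subgroup Γ} [V.Normal] (hV : IsElementaryAbelian p V)
    (h0 : V ≠ ⊥) (hm : ∀ M : Subgroup Γ, M.Normal → M ≤ V → M = ⊥ ∨ M = V) {x : Γ}
    (hx : ⁅⁅V, zpowers x⁆, zpowers x⁆ = ⊥) : x ∈ centralizer (V : Set Γ) := by
  by_contra hn
  have := h.nN
  have hH : (⊤ : Subgroup Γ) ≤ normalizer V := le_normalizer_of_normal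
  let ρ := (ElemMod.rep hV hH).toHomUnits.comp (topEquiv (G := Γ)).symm.toMonoidHom
  have hρ : ∀ g, (ρ g : ElemMod hV →ₗ[ZMod p] ElemMod hV) = ElemMod.rep hV hH ⟨g, mem_top g⟩ := fun _ => rfl
  have : Finite (ElemMod hV) := Finite.of_injective _ ElemMod.toG_injective
  have hirr : IsIrreducibleFor ρ.range := by
    obtain ⟨v, hv⟩ := (ne_bot_iff_exists_ne_one).1 h0
    refine ⟨⟨ElemMod.ofG hV v v.2, fun e => hv (Subtype.ext (ElemMod.toG_eq_one.2 e))⟩, fun W hW => ?_⟩
    refine (hm (ElemMod.toSubgroup W) ⟨?_⟩ (ElemMod.toSubgroup_le W)).imp (fun e => ?_) fun e => ?_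
    · rintro _ ⟨w, hw, rfl⟩ g
      exact ⟨_, hW _ ⟨g, rfl⟩ w hw, ElemMod.toG_rep hH _ _⟩
    · exact eq_bot_iff.2 fun w hw => ElemMod.toG_eq_one.1 (e.le (ElemMod.toG_mem_toSubgroup.2 hw))
    · exact eq_top_iff.2 fun w _ => ElemMod.toG_mem_toSubgroup.1 (e.ge w.toG_mem)
  have h1 : ∀ (α : Module.End (ZMod p) (ElemMod hV)), α * α = 0 → ∀ n : ℕ, (1 + α) ^ n = 1 + (n : ZMod p) • α :=
    fun α e n => by
      induction n with
      | zero => simp
      | succ n ih => rw [pow_succ, ih, Nat.cast_succ, add_smul, one_smul, mul_add, mul_one, add_mul, smul_mul_assoc, e,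
          smul_zero, add_zero, one_mul, add_assoc]
  have h2 : ((ρ x : Module.End (ZMod p) (ElemMod hV)) - 1) * ((ρ x : Module.End (ZMod p) (ElemMod hV)) - 1) = 0 :=
    LinearMap.ext fun w => sub_eq_zero.2 (ElemMod.rep_quadratic hH ⟨x, mem_top x⟩ hx w)
  obtain ⟨Φ, h3, h4⟩ := exists_hom (p := p) (G := ρ.range) (A := A.map ρ) (N := N.map ρ)
    (Ring.two_ne_zero (by rw [ZMod.ringChar_zmod_n]; omega)) (by rw [Nat.card_zmod]; omega) (nu_of_irr (irr_sup hirr _)) (map_le_range _ _)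
    (fun α hα => by
      obtain ⟨g, hg⟩ := hα.qu_mem
      have h6 : ρ g ^ p = 1 := Units.ext (by
        rw [hg, Units.val_pow_eq_pow_val, qu_val, h1 _ hα.sq, ZMod.natCast_self, zero_smul, add_zero, Units.val_one])
      rw [← hg]
      refine zpowers_le.2 (mem_map_of_mem ρ (N.pow_index_mem g)) ?_
      rw [map_pow]
      exact mem_zpowers_pow_iff.2 (h.idx.coprime_dvd_right (orderOf_dvd_of_pow_eq_one h6)))
    (h.cop_map ρ) (η := ρ x - 1) ⟨h2, fun t => by
      obtain ⟨n, rfl⟩ := ZMod.natCast_zmod_surjective t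
      rw [← h1 _ h2, add_sub_cancel]
      exact pow_mem (coe_mem_mon.2 (MonoidHom.mem_range.2 ⟨x, rfl⟩)) n⟩
    fun e => hn ((ElemMod.rep_eq_one_iff hH ⟨x, mem_top x⟩).1 (sub_eq_zero.1 e))
  refine h.inv_map ρ (involves_trans (involves_of_surjective (Φ.rangeRestrict.liftOfSurjective Φ.rangeRestrict_surjective
    ⟨QuotientGroup.mk' _, by rwa [MonoidHom.ker_rangeRestrict, QuotientGroup.ker_mk']⟩) fun y => ?_)
      (involves_of_injective _ (inclusion_injective h3)))
  obtain ⟨y, rfl⟩ := QuotientGroup.mk'_surjective _ y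
  exact ⟨_, MonoidHom.liftOfRightInverse_comp_apply _ _ _ _ y⟩

theorem Hyp.cent (h5 : 5 ≤ p) (n : ℕ) : ∀ (Γ : Type u) [Group Γ] [Finite Γ] {N A : Subgroup Γ}, Hyp p N A →
    ∀ (B : Subgroup Γ) [B.Normal], Nat.card B = n → IsPGroup p B → ∀ x : Γ, ⁅⁅B, zpowers x⁆, zpowers x⁆ = ⊥ →
      ∀ y ∈ normalClosure {x}, (orderOf y).Coprime p → y ∈ centralizer (B : Set Γ) := by
  induction n using Nat.strong_induction_on with
  | _ n ih =>
  intro Γ _ _ N A h B _ hn hB x hx y hy hc
  by_cases h0 : B = ⊥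
  · exact fun t ht => by rw [mem_bot.1 (h0.le ht), one_mul, mul_one]
  have := hB.isNilpotent
  obtain ⟨q, V, hq, _, h1, h2, hV, hm⟩ := Core.exists_elementaryAbelian_minimal_normal_le h0
  obtain rfl : q = p := by
    obtain ⟨v, hv⟩ := (ne_bot_iff_exists_ne_one).1 h1
    obtain ⟨k, hk⟩ := IsPGroup.iff_orderOf.1 (hB.to_le h2) v
    have : Fact q.Prime := ⟨hq⟩
    exact (Nat.prime_dvd_prime_iff_eq hq hp.out).1 (hq.dvd_of_dvd_pow ((orderOf_eq_prime
      (Subtype.ext (hV.2 v v.2)) hv).symm.trans hk).dvd)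
  have h3 : y ∈ centralizer (V : Set Γ) := normalClosure_le_normal (Set.singleton_subset_iff.2
    (h.mem_centralizer h5 hV h1 hm (le_bot_iff.1 (hx ▸ commutator_mono (commutator_mono h2 le_rfl) le_rfl)))) hy
  have hf := QuotientGroup.mk'_surjective V
  have : (B.map (QuotientGroup.mk' V)).Normal := .map inferInstance _ hf
  have h4 := ih _ (by
    rw [← hn, ← Core.card_map_mk'_mul_card_inf B V, inf_eq_right.2 h2]
    exact lt_mul_of_one_lt_right Nat.card_pos ((one_lt_card_iff_ne_bot V).2 h1)) _ (h.map hf) (B.map _) rfl (hB.map _)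
    (QuotientGroup.mk' V x) (by rw [← MonoidHom.map_zpowers, ← map_commutator, ← map_commutator, hx, Subgroup.map_bot])
    (QuotientGroup.mk' V y) (by
      rw [← Set.image_singleton, ← map_normalClosure _ _ hf]; exact mem_map_of_mem _ hy)
    (hc.coprime_dvd_left (orderOf_map_dvd _ _))
  intro t ht
  have h6 : t * y * t⁻¹ * y⁻¹ ∈ V := by
    rw [← QuotientGroup.eq_one_iff, ← QuotientGroup.mk'_apply, map_mul, map_mul, map_mul, h4 _ (mem_map_of_mem _ ht)]
    simp
  exact Constr.commute_of_commutator_commute hc (k := 1) (by rw [pow_one, hV.2 _ h6]) (h3 _ h6)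

theorem Hyp.quadStable (h : Hyp p N A) (h5 : 5 ≤ p) : QuadStable p Γ := by
  rintro B _ hB X - - hX _ ⟨x, hx, rfl⟩
  have hf := QuotientGroup.mk'_surjective (centralizer (B : Set Γ))
  have : ((normalClosure {x}).map (QuotientGroup.mk' (centralizer (B : Set Γ)))).Normal := .map inferInstance _ hf
  refine Core.le_pCore (N := (normalClosure {x}).map _) ?_ (mem_map_of_mem _ (subset_normalClosure rfl))
  rintro ⟨_, y, hy, rfl⟩
  obtain ⟨k, hk⟩ := PStab.exists_coprime_orderOf_pow (p := p) y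
  refine ⟨k, Subtype.ext ?_⟩
  rw [SubgroupClass.coe_pow, ← map_pow]
  exact (QuotientGroup.eq_one_iff _).2 (Hyp.cent h5 _ Γ h B rfl hB x (quadratic_mono hX (zpowers_le.2 hx)) _
    (pow_mem hy _) hk)

theorem zj_normal_of_normal (h2 : p ≠ 2) (hst : QuadStable p Γ) [N.Normal]
    (hc : centralizer (pCore p N : Set N) ≤ pCore p N) (S : Sylow p Γ) (hS : (S : Subgroup Γ) ≤ N) :
    (zj 0 (S : Subgroup Γ)).Normal := by
  have h := zj_inf_normal h2 (.inl rfl) hst S (isStronglyClosed_self _) (pCore p Γ) (Core.isPGroup_pCore p Γ)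
  have h1 := map_le_iff_le_comap.1 (hst _ (Core.isPGroup_pCore p Γ) _ (S.isPGroup'.to_le (zj_le _))
    (elemAb_zj (e := 0) (S : Subgroup Γ)).1 (quadratic_of_le_normalizer (elemAb_zj _).1
      ((Core.pCore_le_sylow S).trans (le_normalizer.trans (normalizer_le_normalizer_zj _)))))
  rwa [inf_eq_left.2 ((le_inf h1 ((zj_le _).trans hS)).trans (Core.le_pCore ?_))] at h
  rintro ⟨y, hy, hN⟩
  obtain ⟨k, hk⟩ := Core.isPGroup_pCore _ _ ⟨_, hy⟩
  have h3 : y ^ p ^ k ∈ centralizer (pCore p Γ : Set Γ) := (QuotientGroup.eq_one_iff _).1 (congrArg Subtype.val hk)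
  obtain ⟨l, hl⟩ := Core.isPGroup_pCore _ _ ⟨⟨_, pow_mem hN (p ^ k)⟩, hc fun z hz => Subtype.ext
    (by exact h3 _ (Core.map_pCore_le_of_normal N (mem_map_of_mem _ hz)))⟩
  exact ⟨k + l, Subtype.ext (by
    rw [pow_add, pow_mul]; exact congrArg (Subtype.val ∘ Subtype.val) hl)⟩

theorem Hyp.sup_eq_top {G : Type*} [Group G] [Finite G] {ι : G →* Γ} (hι : Function.Injective ι)
    (h : Hyp p ι.range A) (h5 : 5 ≤ p) (hG : IsPConstrained p G) (S : Sylow p G) :
    pPrimeCore p G ⊔ normalizer (centerThompsonAOf (S : Subgroup G) : Set G) = ⊤ := by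
  have := h.nN
  have : ((pPrimeCore p G).map ι).Normal := by
    have := Core.map_equiv_pPrimeCore (p := p) (MonoidHom.ofInjective hι)
    have h1 := Core.pPrimeCore_characteristic p ι.range
    convert ConjAct.normal_of_characteristic_of_normal (H := ι.range) (K := pPrimeCore p ι.range)
    rw [← this, Subgroup.map_map]; rfl
  have hf := QuotientGroup.mk'_surjective ((pPrimeCore p G).map ι)
  have h1 := h.map hf
  rw [MonoidHom.map_range] at h1
  have hk : ((QuotientGroup.mk' ((pPrimeCore p G).map ι)).comp ι).ker = pPrimeCore p G := by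
    rw [← MonoidHom.comap_ker, QuotientGroup.ker_mk', comap_map_eq_self_of_injective hι]
  generalize (QuotientGroup.mk' ((pPrimeCore p G).map ι)).comp ι = j at h1 hk
  have hc : (Nat.card j.ker).Coprime p := by rw [hk]; exact Core.coprime_card_pPrimeCore p G
  have hc' : (Nat.card j.rangeRestrict.ker).Coprime p := by rwa [MonoidHom.ker_rangeRestrict]
  have := h1.nN
  have h2 := zj_normal_of_normal (by omega) (h1.quadStable h5) ((Constr.isPConstrained_iff_of_pPrimeCore_eq_bot (by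
    rw [← Core.map_pPrimeCore_eq j.rangeRestrict_surjective hc', Subgroup.map_eq_bot_iff, MonoidHom.ker_rangeRestrict,
      hk])).1 ((Constr.isPConstrained_iff_of_coprime_ker j.rangeRestrict_surjective hc').1 hG))
    ((S.isPGroup'.map j).toSylow (by
      rw [index_map, hp.out.dvd_mul, not_or]
      exact ⟨fun e => S.not_dvd_index (e.trans (index_dvd_of_le le_sup_left)),
        hp.out.coprime_iff_not_dvd.1 h1.idx.symm⟩)) (map_le_range _ _)
  rw [IsPGroup.toSylow_coe, ← map_zj_of_disjoint (Core.isPGroup_inf_eq_bot_of_coprime S.isPGroup' hc), zj_zero] at h2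
  refine eq_top_iff.2 fun g _ => ?_
  obtain ⟨n, hn, e⟩ := Constr.exists_mem_normalizer_of_coprime_ker hc (S.isPGroup'.to_le (zj_zero (S : Subgroup G) ▸
    zj_le _)) (g := g) (le_normalizer_of_normal (mem_top _))
  rw [← inv_mul_cancel_right g n, ← hk]
  exact mul_mem_sup (by rw [MonoidHom.mem_ker, map_mul, map_inv, e, mul_inv_cancel]) hn

end CfsgLib.EqZJ
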